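import Mathlib

/-!
# S5917, type (D): a module for the quaternion group on which `z` acts freely is free

`i j : M → M` linear, `i² = j² = z`, `z² = 1`, `i j = z j i`, characteristic 2, `ker (1+z) ≤ im (1+z)`,
`M ≠ 0`: then the norm `∑ g` is not zero.
-/

namespace Cfsg.Agent.H400.L34.QFree

variable {K M : Type*} [Field K] [AddCommGroup M] [Module K M]

theorem add_self [CharP K 2] (v : M) : v + v = 0 := by
  have h2 : (2 : K) = 0 := by simpa using CharP.cast_eq_zero K 2
  rw [← two_smul K, h2, zero_smul]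

theorem eq_of_add [CharP K 2] {v w : M} (h : v + w = 0) : v = w := by
  have := add_self (K := K) w
  calc v = v + (w + w) := by rw [this, add_zero]
    _ = w := by rw [← add_assoc, h, zero_add]

/-- relations for `X = 1 + i`, `Y = 1 + j`, written additively -/
structure XY (X Y : M →ₗ[K] M) : Prop where
  sq : ∀ v, Y (Y v) = X (X v)
  four : ∀ v, X (X (X (X v))) = 0
  comm : ∀ v, X (Y v) + Y (X v) =
    X (X v) + X (X (X v)) + X (X (Y v)) + X (X (Y (X v)))
  free : ∀ v, X (X v) = 0 → ∃ w, v = X (X w)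

variable {X Y : M →ₗ[K] M}

theorem XY.four' (h : XY X Y) (v : M) : Y (Y (Y (Y v))) = 0 := by
  rw [h.sq, h.sq, h.four]

theorem XY.yz (h : XY X Y) (v : M) : Y (X (X v)) = X (X (Y v)) := by
  rw [← h.sq v, h.sq (Y v)]

/-- `ker X ≤ im X²` -/
theorem XY.kerX (h : XY X Y) {v : M} (hv : X v = 0) : ∃ w, v = X (X w) :=
  h.free v (by rw [hv, map_zero])

theorem XY.kerY (h : XY X Y) {v : M} (hv : Y v = 0) : ∃ w, v = X (X w) :=
  h.free v (by rw [← h.sq, hv, map_zero])

/-- `ker X³ ≤ im X` -/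
theorem XY.ker3 (h : XY X Y) {v : M} (hv : X (X (X v)) = 0) : ∃ w, v = X w := by
  obtain ⟨w, hw⟩ := h.free (X v) hv
  obtain ⟨u, hu⟩ := h.kerX (v := v - X w) (by rw [map_sub, hw, sub_self])
  exact ⟨w + X u, by rw [map_add, ← hu]; abel⟩

theorem XY.ker3Y (h : XY X Y) {v : M} (hv : Y (Y (Y v)) = 0) : ∃ w, v = Y w := by
  obtain ⟨w, hw⟩ := h.free (Y v) (by rw [← h.sq]; exact hv)
  rw [← h.sq] at hw
  obtain ⟨u, hu⟩ := h.kerY (v := v - Y w) (by rw [map_sub, hw, sub_self])
  rw [← h.sq] at hu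
  exact ⟨w + Y u, by rw [map_add, ← hu]; abel⟩

/-- If `Z X Y = 0` then `im Y ≤ im X`. -/
theorem XY.imY (h : XY X Y) (ht : ∀ v, X (X (X (Y v))) = 0) (v : M) : ∃ w, Y v = X w :=
  h.ker3 (ht v)

/-- `Z Y X = Z X Y` -/
theorem XY.tr_comm (h : XY X Y) [CharP K 2] (v : M) : X (X (Y (X v))) = X (X (X (Y v))) := by
  have h1 := congrArg (fun u => X (X u)) (h.comm v)
  simp only [map_add, h.four, add_zero] at h1
  exact (eq_of_add (K := K) h1).symm

theorem XY.imX (h : XY X Y) [CharP K 2] (ht : ∀ v, X (X (X (Y v))) = 0) (v : M) :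
    ∃ w, X v = Y w := by
  apply h.ker3Y
  rw [h.sq, h.tr_comm, ht]

/-- the quadratic relation on `M / im X` -/
theorem XY.quad (h : XY X Y) [CharP K 2] (ht : ∀ v, X (X (X (Y v))) = 0) {v v' v'' : M}
    (h1 : Y v = X v') (h2 : Y v' = X v'') : ∃ w, v + v' + v'' = X w := by
  -- Z v = Y X v' = X Y v' + Z (1 + X + Y + Y X) v' = Z v'' + Z v' + Z X v' + Z Y v'
  have e1 : X (X v) = Y (X v') := by rw [← h.sq, h1]
  have e2 := h.comm v'
  rw [h.tr_comm, ht, add_zero, h2, ← e1] at e2
  -- X (X v'') + X (X v) = X (X v') + X (X (X v')) + X (X (X v''))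
  have e3 : X (X (v + v' + v'' + (X v' + X v''))) = 0 := by
    have e4 : X (X v'') + X (X v) + (X (X v') + X (X (X v')) + X (X (X v''))) = 0 := by
      rw [e2]; exact add_self (K := K) _
    rw [map_add, map_add, map_add, map_add, map_add, map_add, map_add, map_add, ← e4]
    abel
  obtain ⟨w, hw⟩ := h.free _ e3
  refine ⟨X w + v' + v'', ?_⟩
  rw [map_add, map_add, ← hw]
  have e5 := add_self (K := K) (X v')
  have e6 := add_self (K := K) (X v'')
  calc v + v' + v'' = v + v' + v'' + (X v' + X v') + (X v'' + X v'') := by rw [e5, e6]; simp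
    _ = v + v' + v'' + (X v' + X v'') + X v' + X v'' := by abel

/-- the heart: no `v ∉ im X` with `Y v ∈ ω X v + im X²` -/
theorem XY.heart (h : XY X Y) [CharP K 2] (ht : ∀ v, X (X (X (Y v))) = 0) {ω : K}
    (hω : ω ^ 2 + ω + 1 = 0) {v a : M} (hv : Y v = ω • X v + X (X a)) : ∃ w, v = X w := by
  have t2 : (2 : K) = 0 := by simpa using CharP.cast_eq_zero K 2
  obtain ⟨a', ha'⟩ := h.imY ht a
  obtain ⟨a'', ha''⟩ := h.imY ht a'
  -- v ≡ a' + ω a
  obtain ⟨c, hc⟩ : ∃ c, v + a' + ω • a = X c := by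
    -- Z v = Y Y v
    have e1 : X (X v) = Y (ω • X v + X (X a)) := by rw [← h.sq, hv]
    have e2 := h.comm v
    rw [h.tr_comm, ht, add_zero, hv] at e2
    simp only [map_add, map_smul] at e1 e2
    rw [h.yz, ha'] at e1
    -- e1 : X X v = ω • Y X v + X X X a'
    -- e2 : ω • X X v + X X X a + Y X v = X X v + X X X v + (ω • X X X v + X X X X a)
    rw [h.four, add_zero] at e2
    have e3 : Y (X v) = X (X v) + X (X (X v)) + ω • X (X (X v)) + ω • X (X v) + X (X (X a)) := by
      have := congrArg (fun u => u + (ω • X (X v) + X (X (X a)))) e2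
      have d : ω • X (X v) + X (X (X a)) + Y (X v) + (ω • X (X v) + X (X (X a))) = Y (X v) := by
        have := add_self (K := K) (ω • X (X v) + X (X (X a)))
        calc _ = Y (X v) + ((ω • X (X v) + X (X (X a))) + (ω • X (X v) + X (X (X a)))) := by abel
          _ = _ := by rw [this, add_zero]
      rw [d] at this
      rw [this]; abel
    rw [e3] at e1
    -- now everything in terms of X
    have e4 : X (X (X (v + a' + ω • a))) = 0 := by
      simp only [map_add, map_smul]
      have e5 : X (X v) + (ω • (X (X v) + X (X (X v)) + ω • X (X (X v)) + ω • X (X v) +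
        X (X (X a))) + X (X (X a'))) = 0 := by
        rw [← e1]; exact add_self (K := K) _
      have e6 : (1 + ω + ω ^ 2) • X (X v) = 0 := by
        have : 1 + ω + ω ^ 2 = 0 := by linear_combination hω
        rw [this, zero_smul]
      have e7 : (ω + ω ^ 2) • X (X (X v)) = X (X (X v)) := by
        have : ω + ω ^ 2 = 1 := by linear_combination hω - t2
        rw [this, one_smul]
      calc X (X (X v)) + X (X (X a')) + ω • X (X (X a))
          = (1 + ω + ω ^ 2) • X (X v) + ((ω + ω ^ 2) • X (X (X v)) + X (X (X a')) +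
              ω • X (X (X a))) := by rw [e6, e7, zero_add]
        _ = X (X v) + (ω • (X (X v) + X (X (X v)) + ω • X (X (X v)) + ω • X (X v) +
              X (X (X a))) + X (X (X a'))) := by
            simp only [smul_add, add_smul, smul_smul, one_smul, pow_two]; abel
        _ = 0 := e5
    obtain ⟨w, hw⟩ := h.ker3 e4
    exact ⟨w, hw⟩
  obtain ⟨b, hb⟩ := h.quad ht ha' ha''
  -- Y v in two ways
  have f1 : v = X c + a' + ω • a := by
    have e5 := add_self (K := K) (a' + ω • a)
    calc v = v + ((a' + ω • a) + (a' + ω • a)) := by rw [e5, add_zero]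
      _ = (v + a' + ω • a) + a' + ω • a := by abel
      _ = _ := by rw [hc]
  have f2 : Y v = Y (X c) + X a'' + ω • X a' := by
    rw [f1]; simp only [map_add, map_smul, ha', ha'']
  obtain ⟨c', hc'⟩ := h.imY ht c
  have f3 : Y (X c) = X (X c') + X (X c) + X (X (X c)) + X (X (X c')) := by
    have e2 := h.comm c
    rw [h.tr_comm, ht, add_zero, hc'] at e2
    have := congrArg (fun u => X (X c') + u) e2
    rw [← add_assoc, add_self (K := K) (X (X c')), zero_add] at this
    rw [this]; abel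
  have f4 : X v = X (X c) + X a' + ω • X a := by
    rw [f1]; simp only [map_add, map_smul]
  rw [hv, f4, f3] at f2
  -- ω (X X c + X a' + ω X a) + X X a = (..) + X a'' + ω X a'
  obtain ⟨d, hd⟩ : ∃ d, a'' + ω ^ 2 • a = X d := by
    have g1 : X (ω • X c + ω ^ 2 • a + X a + X c' + X c + X (X c) + X (X c') + a'') = 0 := by
      simp only [map_add, map_smul]
      have g2 : (ω • (X (X c) + X a' + ω • X a) + X (X a)) +
          (X (X c') + X (X c) + X (X (X c)) + X (X (X c')) + X a'' + ω • X a') = 0 := by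
        rw [f2]; exact add_self (K := K) _
      have g3 := add_self (K := K) (ω • X a')
      calc _ = (ω • X a' + ω • X a') + (ω • X (X c) + ω ^ 2 • X a + X (X a) + X (X c') + X (X c) +
            X (X (X c)) + X (X (X c')) + X a'') := by rw [g3, zero_add]
        _ = (ω • (X (X c) + X a' + ω • X a) + X (X a)) +
          (X (X c') + X (X c) + X (X (X c)) + X (X (X c')) + X a'' + ω • X a') := by
            simp only [smul_add, smul_smul, pow_two]; abel
        _ = 0 := g2
    obtain ⟨u, hu⟩ := h.kerX g1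
    refine ⟨ω • c + a + c' + c + X c + X c' + X u, ?_⟩
    simp only [map_add, map_smul]
    rw [← hu]
    have k1 := add_self (K := K) (ω • X c + X a + X c' + X c + X (X c) + X (X c'))
    calc a'' + ω ^ 2 • a = (ω • X c + X a + X c' + X c + X (X c) + X (X c')) +
          (ω • X c + X a + X c' + X c + X (X c) + X (X c')) + (a'' + ω ^ 2 • a) := by
            rw [k1, zero_add]
      _ = _ := by abel
  refine ⟨c + b + d, ?_⟩
  simp only [map_add]
  rw [← hc, ← hb, ← hd]
  have k1 := add_self (K := K) a'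
  have k2 := add_self (K := K) a''
  have k3 : ω • a + a + ω ^ 2 • a = 0 := by
    have : ω • a + a + ω ^ 2 • a = (ω ^ 2 + ω + 1) • a := by
      simp only [add_smul, one_smul]; abel
    rw [this, hω, zero_smul]
  calc v = v + (a' + a') + (a'' + a'') + (ω • a + a + ω ^ 2 • a) := by
        rw [k1, k2, k3]; simp
    _ = _ := by abel

/-- **`Z X Y ≠ 0`** -/
theorem XY.exists_ne (h : XY X Y) [CharP K 2] [IsAlgClosed K] [Nontrivial M] :
    ∃ v, X (X (X (Y v))) ≠ 0 := by
  by_contra hc
  push Not at hc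
  have t2 : (2 : K) = 0 := by simpa using CharP.cast_eq_zero K 2
  obtain ⟨ω, hω⟩ : ∃ ω : K, ω ^ 2 + ω + 1 = 0 := by
    obtain ⟨s, hs⟩ := IsAlgClosed.exists_root
      (Polynomial.X ^ 2 + Polynomial.X + Polynomial.C 1 : Polynomial K) (by
        have : (Polynomial.X ^ 2 + Polynomial.X + Polynomial.C 1 : Polynomial K).degree = 2 := by
          compute_degree!
        rw [this]; norm_num)
    refine ⟨s, ?_⟩
    simpa only [Polynomial.IsRoot.def, Polynomial.eval_add, Polynomial.eval_pow,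
      Polynomial.eval_X, Polynomial.eval_C] using hs
  have hω2 : (ω ^ 2) ^ 2 + ω ^ 2 + 1 = 0 := by
    linear_combination (ω ^ 2 - ω + 1) * hω
  -- `im X ≠ M`
  obtain ⟨v0, hv0⟩ : ∃ v0 : M, ∀ w, v0 ≠ X w := by
    by_contra hn
    push Not at hn
    obtain ⟨m, hm⟩ := _root_.exists_ne (0 : M)
    obtain ⟨a, ha⟩ := hn m
    obtain ⟨b, hb⟩ := hn a
    obtain ⟨c, hc'⟩ := hn b
    obtain ⟨d, hd⟩ := hn c
    apply hm
    rw [ha, hb, hc', hd, h.four]
  obtain ⟨v1, hv1⟩ := h.imY hc v0
  obtain ⟨v2, hv2⟩ := h.imY hc v1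
  obtain ⟨w0, hw0⟩ := h.quad hc hv1 hv2
  have hv2' : v2 = v0 + v1 + X w0 := by
    rw [← hw0]
    have k0 := add_self (K := K) v0
    have k1 := add_self (K := K) v1
    calc v2 = (v0 + v0) + (v1 + v1) + v2 := by rw [k0, k1]; simp
      _ = _ := by abel
  have key : ∀ η : K, η ^ 2 + η + 1 = 0 → ∃ w, v1 + η ^ 2 • v0 = X w := by
    intro η hη
    refine h.heart hc hη (a := w0) ?_
    simp only [map_add, map_smul, hv1, hv2, hv2', smul_add, smul_smul]
    have e1 : η * η ^ 2 = 1 := by linear_combination (η - 1) * hη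
    have e2 : (1 + η ^ 2) = η := by linear_combination hη - η * t2
    rw [e1, one_smul]
    have e3 : X v1 + η ^ 2 • X v1 = η • X v1 := by
      rw [← e2, add_smul, one_smul, e2]
    calc X v0 + X v1 + X (X w0) + η ^ 2 • X v1
        = (X v1 + η ^ 2 • X v1) + X v0 + X (X w0) := by abel
      _ = _ := by rw [e3]
  obtain ⟨a, ha⟩ := key ω hω
  obtain ⟨b, hb⟩ := key (ω ^ 2) hω2
  refine hv0 (a + b) ?_
  rw [map_add, ← ha, ← hb]
  have e3 : (ω ^ 2) ^ 2 + ω ^ 2 = 1 := by linear_combination hω2 - t2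
  have k1 := add_self (K := K) v1
  calc v0 = (v1 + v1) + ((ω ^ 2) ^ 2 + ω ^ 2) • v0 := by rw [k1, e3, one_smul, zero_add]
    _ = _ := by rw [add_smul]; abel

/-- a quaternion group of linear maps -/
structure QL (i j : M →ₗ[K] M) : Prop where
  sq : ∀ v, j (j v) = i (i v)
  four : ∀ v, i (i (i (i v))) = v
  comm : ∀ v, i (j v) = i (i (j (i v)))

variable {i j : M →ₗ[K] M}

theorem QL.jz (h : QL i j) (v : M) : j (i (i v)) = i (i (j v)) := by
  rw [← h.sq v, h.sq (j v)]

theorem QL.ji (h : QL i j) (v : M) : j (i v) = i (i (i (j v))) := by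
  rw [h.comm v, h.four]

theorem QL.toXY (h : QL i j) [CharP K 2] (hf : ∀ v, i (i v) = v → ∃ w, v = w + i (i w)) :
    XY (LinearMap.id + i) (LinearMap.id + j) := by
  have hX : ∀ v, (LinearMap.id + i : M →ₗ[K] M) v = v + i v := fun v => rfl
  have hY : ∀ v, (LinearMap.id + j : M →ₗ[K] M) v = v + j v := fun v => rfl
  have hXX : ∀ v : M, v + i v + i (v + i v) = v + i (i v) := fun v => by
    rw [map_add]
    have := add_self (K := K) (i v)
    calc _ = v + (i v + i v) + i (i v) := by abel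
      _ = _ := by rw [this, add_zero]
  refine ⟨fun v => ?_, fun v => ?_, fun v => ?_, fun v hv => ?_⟩
  · simp only [hX, hY]
    rw [hXX, map_add, h.sq]
    have := add_self (K := K) (j v)
    calc _ = v + (j v + j v) + i (i v) := by abel
      _ = _ := by rw [this, add_zero]
  · simp only [hX]
    rw [hXX, hXX]
    simp only [map_add, h.four]
    have := add_self (K := K) (v + i (i v))
    calc _ = (v + i (i v)) + (v + i (i v)) := by abel
      _ = _ := this
  · simp only [hX, hY, map_add, h.four, h.ji]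
    have a1 := add_self (K := K) v
    have a2 := add_self (K := K) (i v)
    have a3 := add_self (K := K) (j v)
    have a4 := add_self (K := K) (i (i v))
    have a5 := add_self (K := K) (i (i (i v)))
    have a6 := add_self (K := K) (i (i (j v)))
    have a7 := add_self (K := K) (i (j v))
    linear_combination (norm := module) -a1 - a3 - (4 : K) • a2 - (2 : K) • a7 - (4 : K) • a4 -
      a5 - a6
  · simp only [hX] at hv
    rw [hXX] at hv
    obtain ⟨w, hw⟩ := hf v (eq_of_add (K := K) (by rw [add_comm]; exact hv))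
    exact ⟨w, by simp only [hX]; rw [hXX, hw]⟩

/-- fixed vector in a stable subspace -/
theorem QL.exists_fix (h : QL i j) [CharP K 2] {W : Submodule K M} (hi : ∀ v ∈ W, i v ∈ W)
    (hj : ∀ v ∈ W, j v ∈ W) (hW : W ≠ ⊥) : ∃ v ∈ W, v ≠ 0 ∧ i v = v ∧ j v = v := by
  have sym : ∀ {a b : M}, a + b = 0 → b = a := fun {a b} hab =>
    (eq_of_add (K := K) hab).symm
  obtain ⟨v0, hv0, h0⟩ := W.exists_mem_ne_zero_of_ne_bot hW
  obtain ⟨v1, hv1, h1, z1⟩ : ∃ v1 ∈ W, v1 ≠ 0 ∧ i (i v1) = v1 := by
    by_cases hc : v0 + i (i v0) = 0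
    · exact ⟨v0, hv0, h0, sym hc⟩
    · refine ⟨_, W.add_mem hv0 (hi _ (hi _ hv0)), hc, ?_⟩
      rw [map_add, map_add, h.four, add_comm]
  obtain ⟨v2, hv2, h2, z2, i2⟩ : ∃ v2 ∈ W, v2 ≠ 0 ∧ i (i v2) = v2 ∧ i v2 = v2 := by
    by_cases hc : v1 + i v1 = 0
    · exact ⟨v1, hv1, h1, z1, sym hc⟩
    · refine ⟨_, W.add_mem hv1 (hi _ hv1), hc, ?_, ?_⟩
      · rw [map_add, map_add, z1]
      · rw [map_add, z1, add_comm]
  by_cases hc : v2 + j v2 = 0
  · exact ⟨v2, hv2, h2, i2, sym hc⟩
  · refine ⟨_, W.add_mem hv2 (hj _ hv2), hc, ?_, ?_⟩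
    · rw [map_add, h.comm, i2, ← h.sq (j v2), h.sq v2, z2]
    · rw [map_add, h.sq, z2, add_comm]

/-- the norm -/
def nrm (i j : M →ₗ[K] M) (v : M) : M :=
  v + i v + i (i v) + i (i (i v)) + (j v + i (j v) + i (i (j v)) + i (i (i (j v))))

/-- **Freeness criterion**: `z` free implies that the norm is not zero. -/
theorem QL.exists_nrm (h : QL i j) [CharP K 2] [IsAlgClosed K] [Nontrivial M]
    (hf : ∀ v, i (i v) = v → ∃ w, v = w + i (i w)) : ∃ v, nrm i j v ≠ 0 := by
  obtain ⟨v, hv⟩ := (h.toXY hf).exists_ne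
  refine ⟨v, ?_⟩
  intro h0
  apply hv
  have hX : ∀ v, (LinearMap.id + i : M →ₗ[K] M) v = v + i v := fun v => rfl
  have hY : ∀ v, (LinearMap.id + j : M →ₗ[K] M) v = v + j v := fun v => rfl
  simp only [hX, hY, map_add]
  unfold nrm at h0
  have a1 := add_self (K := K) (i v)
  have a2 := add_self (K := K) (i (j v))
  have a3 := add_self (K := K) (i (i v))
  have a4 := add_self (K := K) (i (i (j v)))
  linear_combination (norm := module) h0 + a1 + a2 + a3 + a4

end Cfsg.Agent.H400.L34.QFree
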