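import Mathlib

/-!
# S5917, type (D): normal form of a quaternion group of isometries in characteristic 2

`i j : V → V` linear isometries with `i² = j² = z`, `z² = 1`, `i j = z j i`.
If `b v (z v) ≠ 0` for one `v` then there is `f` with `q f = 0`, `b f (z f) = 1`, and
`b f (g f) = 0` for `g = i, j, i j`.
-/

namespace Cfsg.Agent.H400.L34.QNorm

variable {K V : Type*} [Field K] [AddCommGroup V] [Module K V]

/-- isometric quaternion data -/
structure QD (q : V → K) (b : V →ₗ[K] V →ₗ[K] K) (i j : V →ₗ[K] V) : Prop where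
  add : ∀ v w, q (v + w) = q v + q w + b v w
  smul : ∀ (c : K) v, q (c • v) = c ^ 2 * q v
  qi : ∀ v, q (i v) = q v
  qj : ∀ v, q (j v) = q v
  sq : ∀ v, j (j v) = i (i v)
  four : ∀ v, i (i (i (i v))) = v
  comm : ∀ v, i (j v) = i (i (j (i v)))

variable {q : V → K} {b : V →ₗ[K] V →ₗ[K] K} {i j : V →ₗ[K] V}

theorem two_zero [CharP K 2] : (2 : K) = 0 := by
  have := CharP.cast_eq_zero K 2
  simpa using this

theorem QD.b_self (h : QD q b i j) [CharP K 2] (v : V) : b v v = 0 := by
  have h1 := h.add v v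
  have h2 : v + v = (2 : K) • v := by rw [two_smul]
  rw [h2, h.smul, two_zero] at h1
  have h3 : q v + q v = 0 := by rw [← two_mul, two_zero, zero_mul]
  rw [h3] at h1
  simpa using h1.symm

theorem QD.symm (h : QD q b i j) (v w : V) : b v w = b w v := by
  have h1 := h.add v w
  have h2 := h.add w v
  rw [add_comm w v, h1] at h2
  have h3 : q v + q w + b v w = q v + q w + b w v := by
    rw [h2]; ring
  exact add_left_cancel h3

theorem QD.bi (h : QD q b i j) (v w : V) : b (i v) (i w) = b v w := by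
  have h1 := h.add v w
  have h2 := h.add (i v) (i w)
  rw [← map_add, h.qi, h.qi, h.qi, h1] at h2
  exact (add_left_cancel h2).symm

theorem QD.bj (h : QD q b i j) (v w : V) : b (j v) (j w) = b v w := by
  have h1 := h.add v w
  have h2 := h.add (j v) (j w)
  rw [← map_add, h.qj, h.qj, h.qj, h1] at h2
  exact (add_left_cancel h2).symm

/-- `z` commutes with `j` -/
theorem QD.jz (h : QD q b i j) (v : V) : j (i (i v)) = i (i (j v)) := by
  rw [← h.sq v, h.sq (j v)]

theorem QD.ji (h : QD q b i j) (v : V) : j (i v) = i (i (i (j v))) := by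
  rw [h.comm v, h.four]

/-- exchange of the two generators -/
theorem QD.swap (h : QD q b i j) : QD q b j i where
  add := h.add
  smul := h.smul
  qi := h.qj
  qj := h.qi
  sq := fun v => (h.sq v).symm
  four := fun v => by rw [h.sq, h.sq, h.four]
  comm := fun v => by
    rw [h.sq, h.ji v]

theorem QD.k (h : QD q b i j) : QD q b (i ∘ₗ j) i where
  add := h.add
  smul := h.smul
  qi := fun v => by simp only [LinearMap.comp_apply, h.qi, h.qj]
  qj := h.qi
  sq := fun v => by
    simp only [LinearMap.comp_apply]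
    -- i (i v) = i (j (i (j v)))
    rw [h.ji (j v), h.sq v, h.four]
  four := fun v => by
    simp only [LinearMap.comp_apply]
    rw [h.ji (j v), h.sq v, h.four, h.ji (j (i (i v))), h.sq, h.four, h.four]
  comm := fun v => by
    simp only [LinearMap.comp_apply]
    -- i (j (i v)) = i (j (i (j (i (i (j v))))))
    rw [h.ji v, h.four, h.ji (j (i (i (j v)))), h.sq, h.four]
    rw [h.four]

/-- `b v (z v) = b (z v) v`, `b v (g⁻¹ v) = b v (g v)` -/
theorem QD.inv_i (h : QD q b i j) (v : V) : b v (i (i (i v))) = b v (i v) := by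
  rw [← h.bi v (i (i (i v))), h.four, h.symm]

theorem QD.bz (h : QD q b i j) (v w : V) : b (i (i v)) (i (i w)) = b v w := by
  rw [h.bi, h.bi]

theorem QD.zk (h : QD q b i j) (v : V) : b v (i (i (i (j v)))) = b v (i (j v)) := by
  have h1 := h.k.inv_i v
  simp only [LinearMap.comp_apply] at h1
  rw [h.ji (j v), h.sq v, h.four] at h1
  -- b v (i (j (i (i v)))) = b v (i (j v))
  rw [h.jz v] at h1
  exact h1

/-- one step: kill `c_i` -/
theorem QD.step (h : QD q b i j) [CharP K 2] {v : V} (hz : b v (i (i v)) = 1) {s : K}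
    (hs : s ^ 2 + s = b v (i v)) :
    b ((1 + s) • v + s • i v) (i (i ((1 + s) • v + s • i v))) = 1 ∧
    b ((1 + s) • v + s • i v) (i ((1 + s) • v + s • i v)) = 0 ∧
    b ((1 + s) • v + s • i v) (j ((1 + s) • v + s • i v)) = b v (j v) ∧
    b ((1 + s) • v + s • i v) (i (j ((1 + s) • v + s • i v))) = b v (i (j v)) := by
  have t2 : (2 : K) = 0 := two_zero
  have e1 : b (i v) (i v) = 0 := h.b_self _
  have e2 : b (i v) (i (i v)) = b v (i v) := h.bi _ _
  have e3 : b (i v) (i (i (i v))) = 1 := by rw [h.bi, hz]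
  have e4 : b v (i (i (i v))) = b v (i v) := h.inv_i v
  have e5 : b v (j (i v)) = b v (i (j v)) := by rw [h.ji, h.zk]
  have e6 : b (i v) (j v) = b v (i (j v)) := by
    rw [← h.bi (i v) (j v), ← h.bi (i (i v)) (i (j v)), ← h.bi (i (i (i v))) (i (i (j v))),
      h.four, h.zk]
  have e7 : b (i v) (j (i v)) = b v (j v) := by
    rw [h.ji, h.bi, ← h.jz v, ← h.sq v, ]
    have := h.swap.inv_i v
    exact this
  have e8 : b v (i (j (i v))) = b v (j v) := by
    rw [h.ji, h.four]
  have e9 : b (i v) (i (j v)) = b v (j v) := h.bi _ _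
  have e10 : b (i v) (i (j (i v))) = b v (i (j v)) := by
    rw [h.bi, e5]
  have e11 : b (i v) v = b v (i v) := h.symm _ _
  refine ⟨?_, ?_, ?_, ?_⟩
  · simp only [map_add, map_smul, LinearMap.add_apply, LinearMap.smul_apply, smul_eq_mul, hz, e2,
      e3, e4]
    linear_combination (s + s ^ 2 + (1 + s) * s * b v (i v)) * t2
  · simp only [map_add, map_smul, LinearMap.add_apply, LinearMap.smul_apply, smul_eq_mul, hz, e1,
      e2, e11]
    linear_combination (s * b v (i v) + s ^ 2 * b v (i v) + b v (i v)) * t2 + hs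
  · simp only [map_add, map_smul, LinearMap.add_apply, LinearMap.smul_apply, smul_eq_mul, e5, e6,
      e7]
    linear_combination (s + s ^ 2) * (b v (j v) + b v (i (j v))) * t2
  · simp only [map_add, map_smul, LinearMap.add_apply, LinearMap.smul_apply, smul_eq_mul, e8, e9,
      e10]
    linear_combination (s + s ^ 2) * (b v (i (j v)) + b v (j v)) * t2

theorem exists_as [IsAlgClosed K] (c : K) : ∃ s : K, s ^ 2 + s = c := by
  obtain ⟨s, hs⟩ := IsAlgClosed.exists_root
    (Polynomial.X ^ 2 + Polynomial.X - Polynomial.C c : Polynomial K) (by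
      have : (Polynomial.X ^ 2 + Polynomial.X - Polynomial.C c : Polynomial K).degree = 2 := by
        compute_degree!
      rw [this]; norm_num)
  refine ⟨s, ?_⟩
  simp only [Polynomial.IsRoot.def, Polynomial.eval_sub, Polynomial.eval_add, Polynomial.eval_pow,
    Polynomial.eval_X, Polynomial.eval_C] at hs
  linear_combination hs

/-- **Normal form of a quaternion group of isometries.** -/
theorem QD.exists_f (h : QD q b i j) [CharP K 2] [IsAlgClosed K] {v : V}
    (hv : b v (i (i v)) ≠ 0) :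
    ∃ f : V, q f = 0 ∧ b f (i (i f)) = 1 ∧ b f (i f) = 0 ∧ b f (j f) = 0 ∧ b f (i (j f)) = 0 := by
  have t2 : (2 : K) = 0 := two_zero
  -- scale
  obtain ⟨d, hd⟩ := IsAlgClosed.exists_pow_nat_eq (b v (i (i v)))⁻¹ (n := 2) (by norm_num)
  obtain ⟨v, hv1⟩ : ∃ v : V, b v (i (i v)) = 1 := ⟨d • v, by
    simp only [map_smul, LinearMap.smul_apply, smul_eq_mul]
    rw [← mul_assoc, ← pow_two, hd, inv_mul_cancel₀ hv]⟩
  -- kill c_i
  obtain ⟨s, hs⟩ := exists_as (b v (i v))
  obtain ⟨a1, a2, a3, a4⟩ := h.step hv1 hs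
  set v1 := (1 + s) • v + s • i v with hv1d
  -- kill c_j
  have a1' : b v1 (j (j v1)) = 1 := by rw [h.sq]; exact a1
  obtain ⟨s2, hs2⟩ := exists_as (b v1 (j v1))
  obtain ⟨c1, c2, c3, c4⟩ := h.swap.step a1' hs2
  set v2 := (1 + s2) • v1 + s2 • j v1 with hv2d
  rw [a2] at c3
  rw [h.sq] at c1
  -- kill c_k
  have c1' : b v2 ((i ∘ₗ j) ((i ∘ₗ j) v2)) = 1 := by
    simp only [LinearMap.comp_apply]
    rw [h.ji (j v2), h.sq v2, h.four]; exact c1
  obtain ⟨s3, hs3⟩ := exists_as (b v2 ((i ∘ₗ j) v2))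
  obtain ⟨d1, d2, d3, d4⟩ := h.k.step c1' hs3
  set v3 := (1 + s3) • v2 + s3 • (i ∘ₗ j) v2 with hv3d
  simp only [LinearMap.comp_apply] at d1 d2 d3 d4
  rw [h.ji (j v3), h.sq v3, h.four] at d1
  rw [c3] at d3
  rw [h.ji v3, h.four, h.ji v2, h.four, c2] at d4
  -- now v3 has c_z = 1, c_i = c_j = c_k = 0
  obtain ⟨s4, hs4⟩ := exists_as (q v3)
  have z1 : b (i (i v3)) v3 = 1 := by rw [h.symm]; exact d1
  have z2 : b (i (i v3)) (i v3) = 0 := by rw [h.bi, ← h.symm]; exact d3
  have z3 : b (i (i v3)) (j v3) = 0 := by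
    rw [← h.sq v3, h.bj, ← h.symm]; exact d4
  have z4 : b (i (i v3)) (i (j v3)) = 0 := by
    rw [← h.bz (i (i v3)), h.four, h.zk]; exact d2
  have z5 : b v3 (i (i (i v3))) = 0 := by rw [h.inv_i]; exact d3
  have z6 : b (i (i v3)) (i (i (i v3))) = 0 := by rw [h.bz]; exact d3
  have z7 : b v3 (j (i (i v3))) = 0 := by
    rw [h.jz, ← h.bz v3, h.four]; exact z3
  have z8 : b (i (i v3)) (j (i (i v3))) = 0 := by rw [h.jz, h.bz]; exact d4
  have z9 : b v3 (i (j (i (i v3)))) = 0 := by rw [h.jz, h.zk]; exact d2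
  have z10 : b (i (i v3)) (i (j (i (i v3)))) = 0 := by
    rw [h.jz, h.bz]; exact d2
  refine ⟨(1 + s4) • v3 + s4 • i (i v3), ?_, ?_, ?_, ?_, ?_⟩
  · rw [h.add, h.smul, h.smul, h.qi, h.qi]
    simp only [map_smul, LinearMap.smul_apply, smul_eq_mul, d1]
    linear_combination (s4 * q v3 + s4 ^ 2 * q v3 + q v3) * t2 + hs4
  · simp only [map_add, map_smul, LinearMap.add_apply, LinearMap.smul_apply, smul_eq_mul, h.four,
      d1, z1, h.b_self, h.bz]
    linear_combination (s4 + s4 ^ 2) * t2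
  · simp only [map_add, map_smul, LinearMap.add_apply, LinearMap.smul_apply, smul_eq_mul, d3,
      z2, z5, z6]
    ring
  · simp only [map_add, map_smul, LinearMap.add_apply, LinearMap.smul_apply, smul_eq_mul, d4,
      z3, z7, z8]
    ring
  · simp only [map_add, map_smul, LinearMap.add_apply, LinearMap.smul_apply, smul_eq_mul, d2,
      z4, z9, z10]
    ring

end Cfsg.Agent.H400.L34.QNorm
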